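import Cfsg.Agent.H153.Dl.RFi23

/-!
# An element of order 16 in `Fi23` : the words (helper153)

Generated data.
-/

set_option autoImplicit false
set_option maxRecDepth 100000
set_option Elab.async false

namespace Cfsg.Agent.H153.Dl.C23

open Cfsg Cfsg.Agent.Lib.PermNetPt Cfsg.Agent.H153.Dl Cfsg.Agent.H153.Dl.PR

def xw : List LThreeFi23.Lt := [.i, .e, .h, .c, .a, .f, .i, .d, .e, .d, .h, .c, .b, .d, .g, .f, .c, .h, .d]

def y0a : List LThreeFi23.Lt := [.z]

def u : List LThreeFi23.Lt := [.e, .f, .g, .j, .f, .d, .e, .b, .c, .d, .h, .i, .f, .d, .e, .b, .c, .d, .h, .g, .f, .e, .d, .c, .b]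

end Cfsg.Agent.H153.Dl.C23
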